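import Mathlib

set_option autoImplicit false

namespace Cfsg.Agent.Lib.Helper11.Small

theorem syl_card {G : Type*} [Group G] [Finite G] (s k m : ℕ) [Fact s.Prime]
    (hG : Nat.card G = s ^ k * m) (hm : ¬ s ∣ m) (S : Sylow s G) : Nat.card S = s ^ k := by
  have hs : s.Prime := Fact.out
  have hm0 : m ≠ 0 := by
    rintro rfl
    exact hm (dvd_zero _)
  rw [S.card_eq_multiplicity, hG, Nat.factorization_mul (pow_ne_zero _ hs.ne_zero) hm0,
    Nat.factorization_pow, hs.factorization]
  simp [Nat.factorization_eq_zero_of_not_dvd hm]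

theorem syl_not_unique {G : Type*} [Group G] [Finite G] [IsSimpleGroup G] (r : ℕ) [Fact r.Prime]
    (R : Sylow r G) (h1 : Nat.card R ≠ 1) (h2 : Nat.card R ≠ Nat.card G) :
    Nat.card (Sylow r G) ≠ 1 := by
  intro h
  haveI : Subsingleton (Sylow r G) := (Finite.card_le_one_iff_subsingleton).1 h.le
  have hN := R.normal_of_subsingleton
  rcases hN.eq_bot_or_eq_top with h | h
  · apply h1
    show Nat.card (R : Subgroup G) = 1
    rw [h, Subgroup.card_bot]
  · apply h2
    show Nat.card (R : Subgroup G) = _
    rw [h, Subgroup.card_top]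

/-- A simple group with a proper subgroup of index `m` has order dividing `m!`. -/
theorem card_dvd_factorial {G : Type*} [Group G] [Finite G] [IsSimpleGroup G] (H : Subgroup G)
    (hH : H ≠ ⊤) : Nat.card G ∣ (H.index).factorial := by
  classical
  have hker : (MulAction.toPermHom G (G ⧸ H)).ker = ⊥ := by
    rcases (MulAction.toPermHom G (G ⧸ H)).normal_ker.eq_bot_or_eq_top with h | h
    · exact h
    · exfalso
      apply hH
      rw [← Subgroup.normalCore_eq_ker] at h
      exact top_le_iff.1 (h ▸ Subgroup.normalCore_le H)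
  have hinj : Function.Injective (MulAction.toPermHom G (G ⧸ H)) :=
    (MonoidHom.ker_eq_bot_iff _).1 hker
  have := Subgroup.card_dvd_of_injective _ hinj
  rwa [Nat.card_perm, ← Subgroup.index] at this

end Cfsg.Agent.Lib.Helper11.Small
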