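import Cfsg.Agent.Lib.Helper11.Small.Basic

set_option autoImplicit false

namespace Cfsg.Agent.Lib.Helper11.Small

theorem burnside_no {G : Type*} [Group G] [Finite G] [IsSimpleGroup G] (s : ℕ) [Fact s.Prime]
    (S : Sylow s G) (h1 : Nat.card S ≠ 1) (h2 : Nat.card S ≠ Nat.card G)
    (hS : Subgroup.normalizer (S : Set G) ≤ Subgroup.centralizer (S : Set G)) : False := by
  have hc := MonoidHom.ker_transferSylow_isComplement' S hS
  have hcard := hc.card_mul_card
  rcases (MonoidHom.normal_ker (MonoidHom.transferSylow S hS)).eq_bot_or_eq_top with h | h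
  · rw [h, Subgroup.card_bot, one_mul] at hcard
    exact h2 hcard
  · rw [h, Subgroup.card_top] at hcard
    have hpos : 0 < Nat.card G := Nat.card_pos
    have : Nat.card G * Nat.card S = Nat.card G * 1 := by rw [hcard, mul_one]
    exact h1 (Nat.eq_of_mul_eq_mul_left hpos this)

/-- Distinct Sylow subgroups of prime order meet trivially. -/
theorem inter_trivial {G : Type*} [Group G] [Finite G] (r : ℕ) [Fact r.Prime] (P Q : Sylow r G)
    (hP : Nat.card P = r) (hQ : Nat.card Q = r) (hne : Q ≠ P) (x : G)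
    (hxP : x ∈ (P : Subgroup G)) (hxQ : x ∈ (Q : Subgroup G)) : x = 1 := by
  by_contra hx
  apply hne
  have h1 : (P : Subgroup G) ≤ Q := by
    intro y hy
    have := mem_zpowers_of_prime_card (G := (P : Subgroup G)) hP (g := ⟨x, hxP⟩) (g' := ⟨y, hy⟩)
      (by intro h; exact hx (congrArg Subtype.val h))
    obtain ⟨k, hk⟩ := Subgroup.mem_zpowers_iff.1 this
    have h2 : x ^ k = y := by simpa using congrArg Subtype.val hk
    rw [← h2]
    exact Subgroup.zpow_mem _ hxQ k
  have h2 : (P : Subgroup G) = Q := Subgroup.eq_of_le_of_card_ge h1 (by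
    show Nat.card Q ≤ Nat.card P
    rw [hP, hQ])
  exact (Sylow.ext h2).symm

theorem stab_trivial {G : Type*} [Group G] [Finite G] (r : ℕ) [Fact r.Prime] (P Q : Sylow r G)
    (hP : Nat.card P = r) (hQ : Nat.card Q = r) (hne : Q ≠ P) (x : G)
    (hxP : x ∈ (P : Subgroup G)) (hx : x • Q = Q) : x = 1 := by
  have h2 := Sylow.smul_eq_iff_mem_normalizer.1 hx
  have h3 : x ∈ (P : Subgroup G) ⊓ Subgroup.normalizer (Q : Set G) := ⟨hxP, h2⟩
  rw [P.2.inf_normalizer_sylow Q] at h3
  exact inter_trivial r P Q hP hQ hne x hxP h3.2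

theorem orbit_all {G : Type*} [Group G] [Finite G] (r : ℕ) [Fact r.Prime] (P : Sylow r G)
    (hP : Nat.card P = r) (hn : Nat.card (Sylow r G) = r + 1) (Q0 Q1 : Sylow r G)
    (hQ0 : Nat.card Q0 = r) (h0 : Q0 ≠ P) (h1 : Q1 ≠ P) :
    ∃ x ∈ (P : Subgroup G), x • Q0 = Q1 := by
  have hst : MulAction.stabilizer (P : Subgroup G) Q0 = ⊥ := by
    rw [Subgroup.eq_bot_iff_forall]
    intro x hx
    exact Subtype.ext (stab_trivial r P Q0 hP hQ0 h0 x x.2 hx)
  have hcard : (MulAction.orbit (P : Subgroup G) Q0).ncard = r := by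
    rw [← MulAction.index_stabilizer, hst, Subgroup.index_bot, hP]
  have hsub : MulAction.orbit (P : Subgroup G) Q0 ⊆ ({P}ᶜ : Set (Sylow r G)) := by
    rintro _ ⟨x, rfl⟩ hx
    apply h0
    have hx' : (x : G) • Q0 = P := hx
    have h2 : Q0 = (x : G)⁻¹ • P := eq_inv_smul_iff.2 hx'
    rw [h2]
    exact Sylow.smul_eq_iff_mem_normalizer.2 (Subgroup.le_normalizer (inv_mem x.2))
  have hc2 : ({P}ᶜ : Set (Sylow r G)).ncard = r := by
    have := Set.ncard_add_ncard_compl ({P} : Set (Sylow r G))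
    rw [Set.ncard_singleton, hn] at this
    omega
  have heq := Set.eq_of_subset_of_ncard_le hsub (by rw [hcard, hc2]) (Set.toFinite _)
  have hm : Q1 ∈ MulAction.orbit (P : Subgroup G) Q0 := by
    rw [heq]
    exact h1
  obtain ⟨x, hx⟩ := hm
  exact ⟨x, x.2, hx⟩

theorem inverts {G : Type*} [Group G] [Finite G] (r : ℕ) [Fact r.Prime] (P : Sylow r G)
    (hP : Nat.card P = r) (t : G) (ht : t ∈ Subgroup.normalizer (P : Set G)) (ht2 : t * t = 1)
    (x0 : G) (hx0 : x0 ∈ (P : Subgroup G)) (hne : t * x0 ≠ x0 * t)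
    (x : G) (hx : x ∈ (P : Subgroup G)) : t * x * t⁻¹ = x⁻¹ := by
  have hconj : t * x * t⁻¹ ∈ (P : Subgroup G) := (Subgroup.mem_normalizer_iff.1 ht x).1 hx
  have hcomm : ∀ a ∈ (P : Subgroup G), ∀ b ∈ (P : Subgroup G), a * b = b * a := by
    intro a ha b hb
    haveI : IsCyclic (P : Subgroup G) := isCyclic_of_prime_card hP
    have := (IsCyclic.commGroup (α := (P : Subgroup G))).mul_comm ⟨a, ha⟩ ⟨b, hb⟩
    exact congrArg Subtype.val this
  have htinv : t⁻¹ = t := inv_eq_of_mul_eq_one_left ht2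
  rw [htinv] at hconj ⊢
  have hyP : x * (t * x * t) ∈ (P : Subgroup G) := mul_mem hx hconj
  have hty : t * (x * (t * x * t)) = (x * (t * x * t)) * t := by
    have e1 : t * (x * (t * x * t)) = (t * x * t) * x * t := by simp only [mul_assoc]
    rw [e1, hcomm _ hconj _ hx]
  have hy1 : x * (t * x * t) = 1 := by
    by_contra hy
    apply hne
    have := mem_zpowers_of_prime_card (G := (P : Subgroup G)) hP (g := ⟨_, hyP⟩) (g' := ⟨x0, hx0⟩)
      (by intro h; exact hy (congrArg Subtype.val h))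
    obtain ⟨k, hk⟩ := Subgroup.mem_zpowers_iff.1 this
    have h2 : (x * (t * x * t)) ^ k = x0 := by simpa using congrArg Subtype.val hk
    rw [← h2]
    have hc : Commute t (x * (t * x * t)) := hty
    exact (hc.zpow_right k).eq
  exact eq_inv_of_mul_eq_one_right hy1

theorem sign_neg {Ω : Type*} [Fintype Ω] [DecidableEq Ω] (σ : Equiv.Perm Ω) (h2 : σ ^ 2 = 1)
    (hcard : Fintype.card Ω = 24) (p : Ω) (hp : σ p = p)
    (huniq : ∀ a b, a ≠ p → b ≠ p → σ a = a → σ b = b → a = b) : Equiv.Perm.sign σ = -1 := by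
  set F := Finset.univ.filter (fun x => σ x = x) with hF
  have hFle : F.card ≤ 2 := by
    by_cases h : ∃ a ∈ F, a ≠ p
    · obtain ⟨a, ha, hap⟩ := h
      have : F ⊆ {p, a} := by
        intro b hb
        by_cases hbp : b = p
        · simp [hbp]
        · have := huniq a b hap hbp (by simpa [hF] using ha) (by simpa [hF] using hb)
          simp [this]
      exact (Finset.card_le_card this).trans Finset.card_le_two
    · have h' : ∀ a ∈ F, a = p := by
        intro a ha
        by_contra hap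
        exact h ⟨a, ha, hap⟩
      have : F ⊆ {p} := fun b hb => by simp [h' b hb]
      exact (Finset.card_le_card this).trans (by simp)
  have hFpos : 1 ≤ F.card := Finset.card_pos.2 ⟨p, by simp [hF, hp]⟩
  have hsupp : σ.support.card + F.card = 24 := by
    rw [← hcard]
    have : F = σ.supportᶜ := by
      ext x
      simp [hF]
    rw [this, Finset.card_add_card_compl]
  have hne : σ ≠ 1 := by
    rintro rfl
    simp at hsupp
    omega
  have hord : orderOf σ = 2 := orderOf_eq_prime h2 hne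
  obtain ⟨n, hn⟩ := Equiv.Perm.cycleType_prime_order (σ := σ) (by rw [hord]; norm_num)
  rw [hord] at hn
  have hsum := Equiv.Perm.sum_cycleType σ
  rw [hn, Multiset.sum_replicate, smul_eq_mul] at hsum
  have hn11 : n + 1 = 11 := by omega
  rw [Equiv.Perm.sign_of_cycleType, hn, Multiset.sum_replicate, Multiset.card_replicate, hn11]
  rfl

end Cfsg.Agent.Lib.Helper11.Small
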